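import Cfsg.Agent.H237.D4C.Tab
import Cfsg.Agent.H891.DG.Nielsen

/-!
# Generating pairs in the cosets of `Inn T`, `T` the Chevalley group of type `D₄` (helper237, for S4180)

`cosD4` : for all automorphisms `x`, `y` of `T` there are `s`, `t` in `Inn T` with `Inn T ≤ ⟨x s, y t⟩`.
-/

set_option autoImplicit false
set_option linter.unusedSectionVars false

namespace Cfsg.Agent.H237.D4C

open scoped Pointwise
open Cfsg Cfsg.Lie Cfsg.Agent.ChevalleyStructure Cfsg.Agent.ChevalleyStructure.Elts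
  Cfsg.Agent.ChevalleyStructure.NConj Cfsg.Agent.ChevalleyStructure.BNChev Cfsg.Agent.S1042
  Cfsg.Agent.Schreier.ChevLocal Cfsg.Agent.H70.AutFix Cfsg.Agent.H70.ChevTab Cfsg.Agent.H70.ChevFix
  Cfsg.Agent.H70.ChevField Cfsg.Agent.H70.OutCount Cfsg.Agent.H135.TwoG Cfsg.Agent.H134.Cos
  Cfsg.Agent.H70.ChevDiag
open Cfsg.Agent.H891.Gen (Lift)

universe u

variable {F : Type u} [Field F]

section gen

variable {D : ChevalleyDatum} {hD : InList D}

/-- prescribing the values at two roots -/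
theorem adj {ψ : MulAut ↥(D.group F)} {P : ℕ → ℕ} {c : ℕ → F} (h : Mono hD ψ P c fun _ => 1) {a a' : ℕ}
    (ha : a < D.nroots) (ha' : a' < D.nroots) {n1 n2 : ℕ → ℤ} (p1 : prs D n1 a D.rank = 1)
    (p2 : prs D n1 a' D.rank = 0) (p3 : prs D n2 a D.rank = 0) (p4 : prs D n2 a' D.rank = 1) {k : F} (hk : k ≠ 0) :
    ∃ g c', Mono hD (ψ * MulAut.conj g) P c' (fun _ => 1) ∧ c' a = k ∧ c' a' = k := by
  have h1 : k / c a ≠ 0 := div_ne_zero hk (h.ne a ha)
  have h2 : k / c a' ≠ 0 := div_ne_zero hk (h.ne a' ha')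
  refine ⟨tq hD F n1 (k / c a) D.rank * tq hD F n2 (k / c a') D.rank,
    fun s => c s * ((k / c a) ^ prs D n1 s D.rank * (k / c a') ^ prs D n2 s D.rank), ?_, ?_, ?_⟩
  · rw [map_mul]
    exact (h.mul ((mono_tq (hD := hD) h1 le_rfl).mul (mono_tq (hD := hD) h2 le_rfl))).congr (fun _ _ => rfl)
      (fun _ _ => rfl) fun _ _ => rfl
  · change c a * ((k / c a) ^ prs D n1 a D.rank * (k / c a') ^ prs D n2 a D.rank) = k
    rw [p1, p3, zpow_one, zpow_zero, mul_one, mul_div_cancel₀ _ (h.ne a ha)]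
  · change c a' * ((k / c a) ^ prs D n1 a' D.rank * (k / c a') ^ prs D n2 a' D.rank) = k
    rw [p2, p4, zpow_one, zpow_zero, one_mul, mul_div_cancel₀ _ (h.ne a' ha')]

/-- the torus trick and the closure computation -/
theorem fin {M : Subgroup (MulAut ↥(D.group F))} {h : MulAut ↥(D.group F)} {χ : ℕ → F}
    (hh : ∀ s < D.nroots, χ s ≠ 0 ∧ ∀ t, h (xe hD s t) = xe hD s (χ s * t)) {l : List ℕ}
    (hl : ∀ i ∈ l, i < D.rank) {P W : ℕ → ℕ} (hW : ∀ s < D.nroots, W s = wact D l (P s))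
    (hW' : ∀ s < D.nroots, ∃ s' < D.nroots, W s' = s) {ψ : MulAut ↥(D.group F)} {c : ℕ → F} {σ : ℕ → (F ≃+* F)}
    (hψ : Mono hD ψ P c σ) (hM : h ∈ M) {a a' : ℕ}
    (hy : MulAut.conj (xe hD a 1) * (MulAut.conj (we hD F l) * ψ) ∈ M) (ha : a < D.nroots) (ha' : a' < D.nroots)
    (e : W a' = a) (hirr : ∀ Y : AddSubgroup F, (∀ t ∈ Y, χ a * t ∈ Y) → Y = ⊥ ∨ Y = ⊤) (h1 : χ a ≠ 1)
    (h1' : χ a' ≠ 1) {steps : List (ℕ × ℕ)} (hrun : run D W (1 <<< a) steps = 2 ^ D.nroots - 1) : NI D F ≤ M := by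
  obtain ⟨c', hc'⟩ := mono_we (F := F) (hD := hD) hl
  have hvm : Mono hD (MulAut.conj (we hD F l) * ψ) W (fun s => c' (P s) * (1 : F ≃+* F) (c s)) fun s => 1 * σ s :=
    (hc'.mul hψ).congr (fun s hs => hW s hs) (fun _ _ => rfl) fun _ _ => rfl
  obtain ⟨h2, h3⟩ := core hh hvm hW' hM hy ha ha' e hirr h1 h1'
  refine inn_le_of_run hvm h3 (S := 1 <<< a) ?_ hrun
  intro r hr
  rw [Nat.one_shiftLeft, Nat.testBit_two_pow] at hr
  have : a = r := by simpa using hr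
  exact this ▸ h2

theorem lift_of' {ψ ψ' x' : MulAut ↥(D.group F)} (hx : ψ⁻¹ * x' ∈ NI D F) {l : List ℕ} {a : ℕ}
    (h : NI D F ≤ Subgroup.closure {x', MulAut.conj (xe hD a 1) * (MulAut.conj (we hD F l) * ψ')}) :
    Lift (NI D F) ψ ψ' := by
  refine lift_of hx ?_ h
  have e : MulAut.conj (xe hD a 1) * (MulAut.conj (we hD F l) * ψ') = MulAut.conj (xe hD a 1 * we hD F l) * ψ' := by
    rw [map_mul, mul_assoc]
  rw [e]
  exact inv_mul_conj_mul _ _

end gen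

/-! ### characters -/

/-- the diagonal automorphism with exponents `n` -/
def dgx (k : Fˣ) (n : ℕ → ℤ) : MulAut ↥(chevD4.group F) :=
  diagAut hD4 (isMul_chi hD4 hco fun i => k ^ n i)

theorem chi_eq (k : Fˣ) (n : ℕ → ℤ) (s : ℕ) : chi chevD4.rank co (fun i => k ^ n i) s = k ^ En n s := by
  change ∏ i : Fin 4, (k ^ n i) ^ co s i = _
  rw [Fin.prod_univ_four, ← zpow_mul, ← zpow_mul, ← zpow_mul, ← zpow_mul, ← zpow_add, ← zpow_add, ← zpow_add]
  rfl

theorem dgx_xe (k : Fˣ) (n : ℕ → ℤ) (s : ℕ) (t : F) :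
    dgx k n (xe hD4 s t) = xe hD4 s ((k : F) ^ En n s * t) := by
  rw [dgx, diagAut_xe, chi_eq, Units.val_zpow_eq_zpow_val]

theorem cart : ∀ i < 4, ∀ j < 4, chevD4.cartan i (chevD4.simple j) =
    (([[2, -1, 0, 0], [-1, 2, -1, -1], [0, -1, 2, 0], [0, -1, 0, 2]] : List (List ℤ)).getD i []).getD j 0 ∧
    chevD4.cartan i (chevD4.neg (chevD4.simple j)) =
    -(([[2, -1, 0, 0], [-1, 2, -1, -1], [0, -1, 2, 0], [0, -1, 0, 2]] : List (List ℤ)).getD i []).getD j 0 := by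
  decide +kernel

theorem co_simple : ∀ i < 4, ∀ j < 4, co (chevD4.simple j) i = (if i = j then 1 else 0) ∧
    co (chevD4.neg (chevD4.simple j)) i = (if i = j then -1 else 0) := by decide +kernel

theorem En_simple (n : ℕ → ℤ) {j : ℕ} (hj : j < 4) : En n (chevD4.simple j) = n j ∧
    En n (chevD4.neg (chevD4.simple j)) = -n j := by
  unfold En
  have h0 := co_simple 0 (by norm_num) j hj
  have h1 := co_simple 1 (by norm_num) j hj
  have h2 := co_simple 2 (by norm_num) j hj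
  have h3 := co_simple 3 (by norm_num) j hj
  rw [h0.1, h1.1, h2.1, h3.1, h0.2, h1.2, h2.2, h3.2]
  interval_cases j <;> simp

/-- the inner exponents -/
def zz (d : ℕ → ℤ) (i : ℕ) : ℤ :=
  if i = 1 then d 0 + d 2 + d 3 + 2 * d 1 else (d i + (d 0 + d 2 + d 3 + 2 * d 1)) / 2

theorem prs_zz {d : ℕ → ℤ} (h1 : (d 0 + d 2) % 2 = 0) (h2 : (d 0 + d 3) % 2 = 0) {j : ℕ} (hj : j < 4) :
    prs chevD4 (zz d) (chevD4.simple j) chevD4.rank = d j ∧
    prs chevD4 (zz d) (chevD4.neg (chevD4.simple j)) chevD4.rank = -d j := by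
  have hp : ∀ s, prs chevD4 (zz d) s chevD4.rank = 0 + zz d 0 * chevD4.cartan 0 s + zz d 1 * chevD4.cartan 1 s +
      zz d 2 * chevD4.cartan 2 s + zz d 3 * chevD4.cartan 3 s := fun _ => rfl
  rw [hp, hp]
  have c0 := cart 0 (by norm_num) j hj
  have c1 := cart 1 (by norm_num) j hj
  have c2 := cart 2 (by norm_num) j hj
  have c3 := cart 3 (by norm_num) j hj
  rw [c0.1, c1.1, c2.1, c3.1, c0.2, c1.2, c2.2, c3.2]
  have z0 : zz d 0 = (d 0 + (d 0 + d 2 + d 3 + 2 * d 1)) / 2 := rfl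
  have z1 : zz d 1 = d 0 + d 2 + d 3 + 2 * d 1 := rfl
  have z2 : zz d 2 = (d 2 + (d 0 + d 2 + d 3 + 2 * d 1)) / 2 := rfl
  have z3 : zz d 3 = (d 3 + (d 0 + d 2 + d 3 + 2 * d 1)) / 2 := rfl
  rw [z0, z1, z2, z3]
  interval_cases j <;> simp <;> omega

/-- a monomial automorphism without field part on the fundamental root elements -/
theorem exists_exp [Finite F] {k : Fˣ} (hk : ∀ x : Fˣ, x ∈ Subgroup.zpowers k) {π : Equiv.Perm (Fin chevD4.rank)}
    {P : ℕ → ℕ} {c : ℕ → F} {ψ : MulAut ↥(chevD4.group F)} (hP : Ext chevD4 π P) (hψ : Mono hD4 ψ P c fun _ => 1) :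
    ∃ m : ℕ → ℤ, ∀ (i : Fin chevD4.rank) (t : F),
      ψ (xe hD4 (chevD4.simple i) t) = xe hD4 (chevD4.simple (π i)) ((k : F) ^ m i * t) ∧
      ψ (xe hD4 (chevD4.neg (chevD4.simple i)) t) = xe hD4 (chevD4.neg (chevD4.simple (π i))) ((k : F) ^ (-m i) * t) := by
  obtain ⟨d, σ, hd, h1, h2, -⟩ := exists_field hD4 (perm_of_mono hP (hP.neg hD4) hψ)
  have h3 : ∀ (i : Fin chevD4.rank) (t : F), d i * σ i t = c (chevD4.simple i) * t := by
    intro i t
    have h4 := hψ.eq _ (simple_lt hD4 i.2) t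
    rw [h1, hP.1] at h4
    exact xe_inj hD4 (simple_lt hD4 (π i).2) h4
  have h4 : ∀ (i : Fin chevD4.rank) (t : F), σ i t = t := by
    intro i t
    have h5 := h3 i 1
    rw [map_one, mul_one, mul_one] at h5
    have h6 := h3 i t
    rw [← h5] at h6
    exact mul_left_cancel₀ (hd i) h6
  have h5 : ∀ i : Fin chevD4.rank, ∃ m : ℤ, (k : F) ^ m = d i := by
    intro i
    obtain ⟨m, hm⟩ := hk (Units.mk0 (d i) (hd i))
    refine ⟨m, ?_⟩
    have := congrArg Units.val hm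
    simpa using this
  choose m hm using h5
  refine ⟨fun i => if h : i < chevD4.rank then m ⟨i, h⟩ else 0, fun i t => ?_⟩
  have e : (if h : (i : ℕ) < chevD4.rank then m ⟨i, h⟩ else 0) = m i := dif_pos i.2
  simp only [e]
  rw [h1, h2, h4, zpow_neg, hm]
  exact ⟨rfl, rfl⟩

/-- normalising the diagonal part -/
theorem exists_rep [Finite F] {k : Fˣ} (hk : ∀ x : Fˣ, x ∈ Subgroup.zpowers k) {π : Equiv.Perm (Fin chevD4.rank)}
    {P : ℕ → ℕ} {c : ℕ → F} {ψ : MulAut ↥(chevD4.group F)} (hP : Ext chevD4 π P) (hψ : Mono hD4 ψ P c fun _ => 1)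
    {R : ℕ → ℕ → ℤ} (hR : ∀ m : ℕ → ℤ, ∃ r < 4, (R r 0 - m 0 + (R r 2 - m 2)) % 2 = 0 ∧
      (R r 0 - m 0 + (R r 3 - m 3)) % 2 = 0) :
    ∃ r < 4, ∃ g : ↥(chevD4.group F), ∀ (i : Fin chevD4.rank) (t : F),
      (ψ * MulAut.conj g) (xe hD4 (chevD4.simple i) t) = xe hD4 (chevD4.simple (π i)) ((k : F) ^ R r i * t) ∧
      (ψ * MulAut.conj g) (xe hD4 (chevD4.neg (chevD4.simple i)) t) =
        xe hD4 (chevD4.neg (chevD4.simple (π i))) ((k : F) ^ (-R r i) * t) := by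
  obtain ⟨m, hm⟩ := exists_exp hk hP hψ
  obtain ⟨r, hr, h1, h2⟩ := hR m
  refine ⟨r, hr, tq hD4 F (zz fun i => R r i - m i) (k : F) chevD4.rank, fun i t => ?_⟩
  have hq := mono_tq (hD := hD4) (n := zz fun i => R r i - m i) (c := (k : F)) k.ne_zero (le_refl chevD4.rank)
  have hz := prs_zz (d := fun i => R r i - m i) h1 h2 (j := (i : ℕ)) i.2
  have e1 := hq.eq _ (simple_lt hD4 i.2) t
  have e2 := hq.eq _ (neg_simple_lt hD4 i.2) t
  rw [hz.1] at e1
  rw [hz.2] at e2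
  constructor
  · rw [MulAut.mul_apply, e1, (hm i _).1, ← mul_assoc]
    change xe hD4 _ ((k : F) ^ m i * (k : F) ^ (R r i - m i) * t) = _
    rw [← zpow_add₀ k.ne_zero, add_sub_cancel]
  · rw [MulAut.mul_apply, e2, (hm i _).2, ← mul_assoc]
    change xe hD4 _ ((k : F) ^ (-m i) * (k : F) ^ (-(R r i - m i)) * t) = _
    rw [← zpow_add₀ k.ne_zero]
    congr 3
    ring

theorem nK_rep (m : ℕ → ℤ) : ∃ r < 4, (nK r 0 - m 0 + (nK r 2 - m 2)) % 2 = 0 ∧
    (nK r 0 - m 0 + (nK r 3 - m 3)) % 2 = 0 := by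
  rcases Int.emod_two_eq (m 0 + m 2) with h | h <;> rcases Int.emod_two_eq (m 0 + m 3) with h' | h'
  · refine ⟨0, by norm_num, ?_, ?_⟩ <;> simp [nK] <;> omega
  · refine ⟨3, by norm_num, ?_, ?_⟩ <;> simp [nK] <;> omega
  · refine ⟨2, by norm_num, ?_, ?_⟩ <;> simp [nK] <;> omega
  · refine ⟨1, by norm_num, ?_, ?_⟩ <;> simp [nK] <;> omega

/-- the exponents for the rotations -/
def nR (r i : ℕ) : ℤ := if r = 0 then (([1, 0, 1, -1] : List ℤ)).getD i 0 else nK r i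

theorem nR_rep (m : ℕ → ℤ) : ∃ r < 4, (nR r 0 - m 0 + (nR r 2 - m 2)) % 2 = 0 ∧
    (nR r 0 - m 0 + (nR r 3 - m 3)) % 2 = 0 := by
  rcases Int.emod_two_eq (m 0 + m 2) with h | h <;> rcases Int.emod_two_eq (m 0 + m 3) with h' | h'
  · refine ⟨0, by norm_num, ?_, ?_⟩ <;> simp [nR] <;> omega
  · refine ⟨3, by norm_num, ?_, ?_⟩ <;> simp [nR, nK] <;> omega
  · refine ⟨2, by norm_num, ?_, ?_⟩ <;> simp [nR, nK] <;> omega
  · refine ⟨1, by norm_num, ?_, ?_⟩ <;> simp [nR, nK] <;> omega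

/-- the exponents of the cube -/
def nC (i : ℕ) : ℤ := if i = 1 then 0 else 1

theorem nR_sum : ∀ p < 6, p = 3 ∨ p = 4 → ∀ r < 4, ∀ i : Fin chevD4.rank, sym p (sym p (sym p i)) = i ∧
    nR r i + nR r (sym p i) + nR r (sym p (sym p i)) = nC i := by decide +kernel

/-! ### the cases -/

/-- all pairs of types `i` (without field part) and `j` -/
def LL (F : Type u) [Field F] (i j : ℕ) : Prop :=
  ∀ (ψ ψ' : MulAut ↥(chevD4.group F)) (c c' : ℕ → F) (τ : F ≃+* F), Mono hD4 ψ (PJ i) c (fun _ => 1) →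
    Mono hD4 ψ' (PJ j) c' (fun _ => τ) → Lift (NI chevD4 F) ψ ψ'

theorem units_eq_one (hq : ¬ ∃ x : F, x ≠ 0 ∧ x ≠ 1) (x : F) : x = 0 ∨ x = 1 := by
  by_contra h
  rw [not_or] at h
  exact hq ⟨x, h⟩

/-- in the field with two elements monomial automorphisms with trivial permutation are trivial -/
theorem eq_one_of_two (hF : ∀ x : F, x = 0 ∨ x = 1) {ψ : MulAut ↥(chevD4.group F)} {P : ℕ → ℕ} {c : ℕ → F}
    {σ : ℕ → (F ≃+* F)} (h : Mono hD4 ψ P c σ) (hP : ∀ s < chevD4.nroots, P s = s) : ψ = 1 := by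
  apply ext_xe (hD := hD4)
  intro s hs t
  have h1 : c s = 1 := (hF _).resolve_left (h.ne s hs)
  have h2 : σ s t = t := by
    rcases hF t with rfl | rfl
    · exact map_zero _
    · exact map_one _
  rw [h.eq s hs, hP s hs, h1, one_mul, h2]
  rfl

/-- `x` inner-diagonal, `y` of graph type -/
theorem ll_zero [Finite F] {j : ℕ} (hj : j < 6) (hj0 : j ≠ 0) : LL F 0 j := by
  intro ψ ψ' c c' τ hψ hψ'
  by_cases hq : ∃ x : F, x ≠ 0 ∧ x ≠ 1
  · obtain ⟨k, hk⟩ := IsCyclic.exists_generator (α := Fˣ)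
    have hk1 := gen_ne_one hq hk
    obtain ⟨ha, ha', -, -⟩ := aJ_lt j hj
    obtain ⟨p1, p2, p3, p4⟩ := prs_a j hj hj0
    obtain ⟨g, c1, hm, h1, h2⟩ := adj hψ ha ha' p1 p2 p3 p4 k.ne_zero
    refine lift_of' (hD := hD4) (x' := ψ * MulAut.conj g) (l := wJ j) (a := aJ j) ⟨g, by group⟩ ?_
    exact fin (hD := hD4) (h := ψ * MulAut.conj g) (χ := c1)
      (fun s hs => ⟨hm.ne s hs, fun t => by rw [hm.eq s hs, PJ_one s hs]; rfl⟩) (wJ_lt j hj) (WJ_eq j hj) (WJ_surj j hj)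
      hψ' (Subgroup.subset_closure (by simp)) (Subgroup.subset_closure (by simp)) ha ha' (WJ_aJ j hj hj0).1
      (irr_of_gen hk (e := 1) (Or.inl rfl) (by rw [h1, zpow_one])) (by rw [h1]; exact hk1) (by rw [h2]; exact hk1)
      (run_sA j hj hj0)
  · have hF := units_eq_one hq
    exact lift_F2 hF hψ' (wJ_lt j hj) (WJ_eq j hj) (run_sA j hj hj0)
      (by rw [eq_one_of_two hF hψ PJ_one]; exact one_mem _)

/-- `x` an involutory graph automorphism, `y` of graph type, at least four elements -/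
theorem ll_inv [Finite F] (hq : ∀ k : Fˣ, (∀ x : Fˣ, x ∈ Subgroup.zpowers k) → (k : F) ^ 2 ≠ 1) {i j : ℕ} (hi : i < 6)
    (hi2 : ∀ s < chevD4.nroots, PJ i (PJ i s) = s) (hj : j < 6) (hj0 : j ≠ 0) : LL F i j := by
  intro ψ ψ' c c' τ hψ hψ'
  obtain ⟨k, hk⟩ := IsCyclic.exists_generator (α := Fˣ)
  have hk1 := hq k hk
  obtain ⟨ha, ha', -, -⟩ := aJ_lt j hj
  obtain ⟨p1, p2, p3, p4⟩ := prs_a j hj hj0
  obtain ⟨g, c1, hm, h1, h2⟩ := adj hψ ha ha' p1 p2 p3 p4 k.ne_zero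
  have hx : ψ * MulAut.conj g ∈ Subgroup.closure {ψ * MulAut.conj g,
      MulAut.conj (xe hD4 (aJ j) 1) * (MulAut.conj (we hD4 F (wJ j)) * ψ')} := Subgroup.subset_closure (by simp)
  have hm2 := hm.mul hm
  have ea : c1 (PJ i (aJ j)) * c1 (aJ j) = (k : F) ^ 2 := by rw [(PJ_aJ i hi j hj).1, h1, sq]
  have ea' : c1 (PJ i (aJ' j)) * c1 (aJ' j) = (k : F) ^ 2 := by rw [(PJ_aJ i hi j hj).2, h2, sq]
  refine lift_of' (hD := hD4) (x' := ψ * MulAut.conj g) (l := wJ j) (a := aJ j) ⟨g, by group⟩ ?_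
  refine fin (hD := hD4) (h := ψ * MulAut.conj g * (ψ * MulAut.conj g)) (χ := fun s => c1 (PJ i s) * c1 s)
      (fun s hs => ⟨mul_ne_zero (hm.ne _ (hm.lt s hs)) (hm.ne s hs), fun t => ?_⟩) (wJ_lt j hj) (WJ_eq j hj) (WJ_surj j hj)
      hψ' (Subgroup.mul_mem _ hx hx) (Subgroup.subset_closure (by simp)) ha ha' (WJ_aJ j hj hj0).1
      (irr_of_gen hk (e := 2) (Or.inr (Or.inr (Or.inl rfl))) (by rw [ea]; norm_cast)) (by rw [ea]; exact hk1) (by rw [ea']; exact hk1)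
      (run_sA j hj hj0)
  rw [hm2.eq s hs, hi2 s hs]
  rfl

theorem cube_aux {G : Type*} [Group G] {u ψ : G} (h : ψ * u = u * ψ) (hu : u * u = 1) (h3 : ψ * (ψ * ψ) = 1) :
    u * ψ * (u * ψ * (u * ψ)) = u := by
  have e : u * ψ * (u * ψ * (u * ψ)) = u * (ψ * u) * ψ * (u * ψ) := by group
  have e1 : u * (u * ψ) * ψ * (u * ψ) = (u * u) * ψ * (ψ * u) * ψ := by group
  have e2 : ψ * (u * ψ) * ψ = (ψ * u) * ψ * ψ := by group
  have e3 : u * ψ * ψ * ψ = u * (ψ * (ψ * ψ)) := by group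
  rw [e, h, e1, hu, one_mul, h, e2, h, e3, h3, mul_one]

/-- `x` a rotation, `y` of graph type -/
theorem ll_rot [Finite F] {i j : ℕ} (hi : i = 3 ∨ i = 4) (hj : j < 6) (hj0 : j ≠ 0) : LL F i j := by
  intro ψ ψ' c c' τ hψ hψ'
  have hi6 : i < 6 := by omega
  by_cases hq : ∃ x : F, x ≠ 0 ∧ x ≠ 1
  · obtain ⟨k, hk⟩ := IsCyclic.exists_generator (α := Fˣ)
    have hk1 := gen_ne_one hq hk
    obtain ⟨-, -, hb, hb'⟩ := aJ_lt j hj
    obtain ⟨r, hr, g, hg⟩ := exists_rep hk (ext_PJ i hi6) hψ nR_rep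
    have hxN : ψ⁻¹ * (ψ * MulAut.conj g) ∈ NI chevD4 F := ⟨g, by group⟩
    generalize ψ * MulAut.conj g = x' at hg hxN
    have hcube : x' * (x' * x') = dgx k nC := by
      refine ext_values hD4 (fun a t => ?_) fun a t => ?_
      · obtain ⟨e1, e2⟩ := nR_sum i hi6 hi r hr a
        rw [MulAut.mul_apply, MulAut.mul_apply, (hg _ _).1, (hg _ _).1, (hg _ _).1, e1, dgx_xe, (En_simple nC a.2).1,
          ← e2, zpow_add₀ k.ne_zero, zpow_add₀ k.ne_zero]
        congr 1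
        ring
      · obtain ⟨e1, e2⟩ := nR_sum i hi6 hi r hr a
        rw [MulAut.mul_apply, MulAut.mul_apply, (hg _ _).2, (hg _ _).2, (hg _ _).2, e1, dgx_xe, (En_simple nC a.2).2,
          ← e2, neg_add, neg_add, zpow_add₀ k.ne_zero, zpow_add₀ k.ne_zero]
        congr 1
        ring
    have hx : x' ∈ Subgroup.closure {x',
      MulAut.conj (xe hD4 (bJ j) 1) * (MulAut.conj (we hD4 F (wJ j)) * ψ')} := Subgroup.subset_closure (by simp)
    obtain ⟨E1, E2⟩ := En_bJ j hj hj0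
    have hne : ∀ e : ℤ, e = 1 ∨ e = -1 → (k : F) ^ e ≠ 1 := by
      rintro e (rfl | rfl)
      · rwa [zpow_one]
      · rw [zpow_neg, zpow_one]
        exact fun h => hk1 (inv_eq_one.1 h)
    refine lift_of' (hD := hD4) (x' := x') (l := wJ j) (a := bJ j) hxN ?_
    exact fin (hD := hD4) (h := dgx k nC) (χ := fun s => (k : F) ^ En nC s)
      (fun s hs => ⟨zpow_ne_zero _ k.ne_zero, fun t => dgx_xe k nC s t⟩) (wJ_lt j hj) (WJ_eq j hj) (WJ_surj j hj)
      hψ' (by rw [← hcube]; exact Subgroup.mul_mem _ hx (Subgroup.mul_mem _ hx hx))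
      (Subgroup.subset_closure (by simp)) hb hb' (WJ_aJ j hj hj0).2
      (irr_of_gen hk (e := En nC (bJ j)) (E1.imp_right Or.inl) rfl) (hne _ E1) (hne _ E2)
      (run_sB j hj hj0)
  · have hF := units_eq_one hq
    -- `x' = conj (x_a(1)) ψ`, `ψ` fixes `x_a(1)`, `ψ ^ 3 = 1`
    have h11 : (1 : F) + 1 = 0 := by
      rcases hF (1 + 1) with h | h
      · exact h
      · exact absurd (by linear_combination h : (1 : F) = 0) one_ne_zero
    have ha := (aJ_lt j hj).1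
    have hfix : ψ (xe hD4 (aJ j) 1) = xe hD4 (aJ j) 1 := by
      have h1 : c (aJ j) = 1 := (hF _).resolve_left (hψ.ne _ ha)
      rw [hψ.eq _ ha, (PJ_aJ i hi6 j hj).1, h1, one_mul]
      rfl
    have hcomm : Commute ψ (MulAut.conj (xe hD4 (aJ j) (1 : F))) := by
      have := conj_conj ψ (xe hD4 (aJ j) (1 : F))
      rw [hfix, mul_inv_eq_iff_eq_mul] at this
      exact this
    have h3 : ψ * (ψ * ψ) = 1 := by
      refine eq_one_of_two hF (hψ.mul (hψ.mul hψ)) ?_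
      have : ∀ i < 6, i = 3 ∨ i = 4 → ∀ s < chevD4.nroots, PJ i (PJ i (PJ i s)) = s := by decide +kernel
      exact this i hi6 hi
    obtain ⟨c2, hc2⟩ := mono_we (F := F) (hD := hD4) (wJ_lt j hj)
    set v := MulAut.conj (we hD4 F (wJ j)) * ψ' with hv
    have hvm : Mono hD4 v (WJ j) (fun s => c2 (PJ j s) * (1 : F ≃+* F) (c' s)) fun s => 1 * τ :=
      (hc2.mul hψ').congr (fun s hs => WJ_eq j hj s hs) (fun _ _ => rfl) fun _ _ => rfl
    refine lift_of (x' := MulAut.conj (xe hD4 (aJ j) 1) * ψ) (y' := v) (inv_mul_conj_mul _ _)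
      (by rw [hv]; exact inv_mul_conj_mul _ _) ?_
    set M := Subgroup.closure {MulAut.conj (xe hD4 (aJ j) (1 : F)) * ψ, v} with hM
    have m1 : MulAut.conj (xe hD4 (aJ j) (1 : F)) * ψ ∈ M := Subgroup.subset_closure (by simp)
    have m2 : v ∈ M := Subgroup.subset_closure (by simp)
    have m3 : MulAut.conj (xe hD4 (aJ j) (1 : F)) ∈ M := by
      have h4 := M.mul_mem m1 (M.mul_mem m1 m1)
      have e : MulAut.conj (xe hD4 (aJ j) (1 : F)) * ψ * (MulAut.conj (xe hD4 (aJ j) (1 : F)) * ψ *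
          (MulAut.conj (xe hD4 (aJ j) (1 : F)) * ψ)) = MulAut.conj (xe hD4 (aJ j) (1 : F)) := by
        have e1 : MulAut.conj (xe hD4 (aJ j) (1 : F)) * MulAut.conj (xe hD4 (aJ j) (1 : F)) = 1 := by
          rw [← map_mul, ← xe_add, h11, xe_zero, map_one]
        have e2 := hcomm.eq
        exact cube_aux e2 e1 h3
      rwa [e] at h4
    refine inn_le_of_run hvm m2 (S := 1 <<< aJ j) ?_ (run_sA j hj hj0)
    intro r hr
    rw [Nat.one_shiftLeft, Nat.testBit_two_pow] at hr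
    have : aJ j = r := by simpa using hr
    exact this ▸ has_of_two hF m3

/-- both of inner-diagonal-field type -/
theorem ll_zz [Finite F] : LL F 0 0 := by
  intro ψ ψ' c c' τ hψ hψ'
  by_cases hq : ∃ x : F, x ≠ 0 ∧ x ≠ 1
  · obtain ⟨k, hk⟩ := IsCyclic.exists_generator (α := Fˣ)
    have hk1 := gen_ne_one hq hk
    have hne : ∀ e : ℤ, e = 1 ∨ e = -1 → (k : F) ^ e ≠ 1 := by
      rintro e (rfl | rfl)
      · rwa [zpow_one]
      · rw [zpow_neg, zpow_one]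
        exact fun h => hk1 (inv_eq_one.1 h)
    obtain ⟨r, hr, g, hg⟩ := exists_rep hk (ext_PJ 0 (by norm_num)) hψ nK_rep
    have hx : ψ * MulAut.conj g = dgx k (nK r) := by
      refine ext_values hD4 (fun a t => ?_) fun a t => ?_
      · rw [(hg a t).1, dgx_xe, (En_simple _ a.2).1]
        rfl
      · rw [(hg a t).2, dgx_xe, (En_simple _ a.2).2]
        rfl
    obtain ⟨ha, ha', hb, hb'⟩ := aK_lt r hr
    obtain ⟨E1, E2, E3, E4⟩ := En_K r hr
    refine lift_congr (x' := dgx k (nK r)) (y' := ψ') ⟨g, by rw [← hx]; group⟩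
      (by rw [inv_mul_cancel]; exact one_mem _) ?_
    exact lift_two' (hD := hD4) (χ := fun s => (k : F) ^ En (nK r) s)
      (fun s hs => ⟨zpow_ne_zero _ k.ne_zero, fun t => dgx_xe k _ s t⟩) hψ' (wK_lt r hr) (W := WK r)
      (fun s hs => by rw [PJ_one s hs]; exact WK_eq r hr s hs) (WK_surj r hr) ha ha' (WK_aK r hr).1 hb hb'
      (WK_aK r hr).2 (irr_of_gen hk (e := En (nK r) (aK r)) (E1.imp_right Or.inl) rfl) (hne _ E1) (hne _ E2)
      (by simp only [E3, zpow_zero]) (irr_of_gen hk (e := En (nK r) (bK' r)) E4 rfl) (run_sK r hr)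
  · have hF := units_eq_one hq
    have h11 : (2 : F) = 0 := by
      rcases hF 2 with h | h
      · exact h
      · exact absurd (by linear_combination h : (1 : F) = 0) one_ne_zero
    have : CharP F 2 := CharTwo.of_one_ne_zero_of_two_eq_zero one_ne_zero h11
    obtain ⟨g, h, hg, hh, hgh⟩ := twoD4 hF
    rw [eq_one_of_two hF hψ PJ_one, eq_one_of_two hF hψ' PJ_one]
    refine Cfsg.Agent.H891.DG.Nielsen.lift_one ⟨⟨g, hg⟩, ⟨h, hh⟩, ?_⟩
    rw [eq_top_iff]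
    intro x _
    have hx : (x : GL chevD4.Idx F) ∈ (Subgroup.closure {(⟨g, hg⟩ : ↥(chevD4.group F)), ⟨h, hh⟩}).map
        (chevD4.group F).subtype := by
      rw [MonoidHom.map_closure, Set.image_pair]
      exact hgh x.2
    obtain ⟨y, hy, e⟩ := hx
    exact (Subtype.ext e : y = x) ▸ hy

/-- inverses -/
theorem mono_inv {i : ℕ} (hi : i < 6) {ψ : MulAut ↥(chevD4.group F)} {c : ℕ → F} (h : Mono hD4 ψ (PJ i) c fun _ => 1) :
    Mono hD4 ψ⁻¹ (PJ (iv i)) (fun s => (c (PJ (iv i) s))⁻¹) fun _ => 1 where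
  lt s hs := (ext_PJ (iv i) (iv_lt i hi)).2.1 s hs
  ne s hs := inv_ne_zero (h.ne _ ((ext_PJ (iv i) (iv_lt i hi)).2.1 s hs))
  eq s hs t := by
    apply ψ.injective
    have h1 := (ext_PJ (iv i) (iv_lt i hi)).2.1 s hs
    rw [MulAut.apply_inv_self, h.eq _ h1, (PJ_iv i hi s hs).1]
    change _ = xe hD4 s (c (PJ (iv i) s) * ((c (PJ (iv i) s))⁻¹ * t))
    rw [mul_inv_cancel_left₀ (h.ne _ h1)]

/-- a Nielsen move -/
theorem ll_mul {i j : ℕ} (hi : i < 6) (hj : j < 6) (h : LL F i (mT (iv i) j)) : LL F i j := by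
  intro ψ ψ' c c' τ hψ hψ'
  apply lift_mul
  exact h ψ (ψ⁻¹ * ψ') c _ τ hψ (((mono_inv hi hψ).mul hψ').congr
    (fun s hs => (PJ_mT (iv i) (iv_lt i hi) j hj s hs).symm) (fun _ _ => rfl) fun _ _ => (one_mul τ).symm)

theorem mT_iv : ∀ i < 6, mT (iv i) 0 = iv i ∧ (i ≠ 0 → iv i ≠ 0) := by decide +kernel

theorem inv_cases : ∀ i < 6, (i = 0 ∨ i = 3 ∨ i = 4) ∨ ((∀ s < chevD4.nroots, PJ i (PJ i s) = s) ∧
    ∀ j < 6, (j = 0 ∨ j = 3 ∨ j = 4) ∨ (mT (iv i) j = 0 ∨ mT (iv i) j = 3 ∨ mT (iv i) j = 4)) := by decide +kernel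

/-- the rows `0`, `3`, `4` -/
theorem ll_row [Finite F] {i : ℕ} (hi : i = 0 ∨ i = 3 ∨ i = 4) {j : ℕ} (hj : j < 6) (hj0 : j ≠ 0) : LL F i j := by
  rcases hi with rfl | hi
  · exact ll_zero hj hj0
  · exact ll_rot hi hj hj0

/-- at most three elements: no field automorphisms -/
theorem fld_trivial [Finite F] (h : Nat.card F ≤ 3) (τ : F ≃+* F) : τ = 1 := by
  classical
  have : Fintype F := Fintype.ofFinite F
  obtain ⟨p, hp⟩ := CharP.exists F
  have hpp : p.Prime := (CharP.char_is_prime_or_zero F p).resolve_right (CharP.char_ne_zero_of_finite F p)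
  obtain ⟨n, -, hn⟩ := FiniteField.card F p
  have hn1 : (n : ℕ) = 1 := by
    by_contra hne
    have h2 : 2 ≤ (n : ℕ) := by
      have := n.pos
      omega
    have h4 : 2 ^ 2 ≤ p ^ (n : ℕ) := (Nat.pow_le_pow_right (by norm_num) h2).trans (Nat.pow_le_pow_left hpp.two_le _)
    rw [Nat.card_eq_fintype_card, hn] at h
    omega
  have : Fact p.Prime := ⟨hpp⟩
  have h5 := Cfsg.Agent.Lib.FieldAutCard.card_ringAut (F := F) (p := p) (f := 1) le_rfl (by rw [hn, hn1])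
  have h6 : Subsingleton (F ≃+* F) := by
    have := (Nat.card_eq_one_iff_unique.1 h5).1
    exact this
  exact Subsingleton.elim _ _

/-- **All pairs.** -/
theorem ll_all [Finite F] {i j : ℕ} (hi : i < 6) (hj : j < 6) : LL F i j := by
  -- the second one is of graph type
  have key : ∀ i < 6, ∀ j < 6, j ≠ 0 → LL F i j := by
    intro i hi j hj hj0
    by_cases h0 : i = 0 ∨ i = 3 ∨ i = 4
    · exact ll_row h0 hj hj0
    have hi0 : i ≠ 0 := fun h => h0 (Or.inl h)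
    obtain ⟨h1, h2⟩ := (inv_cases i hi).resolve_left h0
    by_cases hq : Nat.card F ≤ 3
    · -- no field automorphisms
      intro ψ ψ' c c' τ hψ hψ'
      rw [fld_trivial hq τ] at hψ'
      by_cases hj34 : j = 3 ∨ j = 4
      · exact Cfsg.Agent.H891.Gen.Lift.symm (ll_rot hj34 hi hi0 ψ' ψ c' c 1 hψ' hψ)
      · apply lift_mul
        apply Cfsg.Agent.H891.Gen.Lift.symm
        have hm := (h2 j hj).resolve_left (by
          rintro (h | h)
          · exact hj0 h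
          · exact hj34 h)
        exact ll_row hm hi hi0 _ _ _ _ 1 (((mono_inv hi hψ).mul hψ').congr
          (fun s hs => (PJ_mT (iv i) (iv_lt i hi) j hj s hs).symm) (fun _ _ => rfl) fun _ _ => (one_mul _).symm) hψ
    · refine ll_inv (fun k hk h3 => hq ?_) hi h1 hj hj0
      have h4 : k ^ 2 = 1 := Units.ext (by rw [Units.val_pow_eq_pow_val, Units.val_one]; exact h3)
      have h5 : orderOf k = Nat.card Fˣ := orderOf_eq_card_of_forall_mem_zpowers hk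
      have h6 : orderOf k ≤ 2 := Nat.le_of_dvd (by norm_num) (orderOf_dvd_of_pow_eq_one h4)
      have : Fintype F := Fintype.ofFinite F
      have h7 : Nat.card Fˣ = Nat.card F - 1 := by
        rw [Nat.card_units, Nat.card_eq_fintype_card]
      omega
  by_cases hj0 : j = 0
  · subst hj0
    by_cases hi0 : i = 0
    · subst hi0
      exact ll_zz
    · apply ll_mul hi hj
      rw [(mT_iv i hi).1]
      exact key i hi _ (iv_lt i hi) ((mT_iv i hi).2 hi0)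
  · exact key i hi j hj hj0

/-! ### all automorphisms -/

theorem sym_all : ∀ π : Equiv.Perm (Fin chevD4.rank), chevD4.IsDiagramSymmetry π → ∃ j < 6, π = sym j := by
  unfold ChevalleyDatum.IsDiagramSymmetry
  decide +kernel

theorem sym_Sym : ∀ j < 6, Sym chevD4 (sym j) := by decide +kernel

theorem hfull4 [Finite F] (θ : MulAut ↥(chevD4.group F)) : ∃ κ ∈ KX hD4 F, ∃ τ, θ = κ * fl chevD4 τ := by
  refine full_of (fun π hπ => ?_) θ
  obtain ⟨φ, hφ⟩ := hπ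
  obtain ⟨j, hj, rfl⟩ := sym_all π (Cfsg.Agent.H70.DiagSym.isDiagramSymmetry hD4 hφ)
  exact ⟨sym_Sym j hj, PJ j, ext_PJ j hj⟩

theorem decomp [Finite F] (y : MulAut ↥(chevD4.group F)) : ∃ j < 6, ∃ g ψ c τ, y = MulAut.conj g * ψ ∧
    Mono hD4 ψ (PJ j) c (fun _ => τ) := by
  obtain ⟨g, ψ, π, rfl, hπ⟩ := exists_perm_form hD4 y
  obtain ⟨j, hj, rfl⟩ := sym_all π (Cfsg.Agent.H70.DiagSym.isDiagramSymmetry hD4 hπ)
  obtain ⟨c, τ, hm⟩ := mono_of_sym (hD := hD4) hπ (sym_Sym j hj) (ext_PJ j hj)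
  exact ⟨j, hj, g, ψ, c, τ, rfl, hm⟩

/-- **The row `D₄(q)`.** -/
theorem cosD4 [Finite F] (x y : MulAut ↥(chevD4.group F)) : Lift (NI chevD4 F) x y := by
  refine lift_of_KX (hD := hD4) hfull4 (fun x y hx => ?_) x y
  obtain ⟨g, ψ, π, P, c, rfl, hP, hm, hp⟩ := exists_of_mem_KX hx
  obtain ⟨i, hi, rfl⟩ := sym_all π (Cfsg.Agent.H70.DiagSym.isDiagramSymmetry hD4 hp)
  obtain ⟨j, hj, g', ψ', c', τ, rfl, hm'⟩ := decomp y
  have hm1 : Mono hD4 ψ (PJ i) c fun _ => 1 :=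
    hm.congr (fun s hs => (hP.unique hD4 (ext_PJ i hi) s hs).symm) (fun _ _ => rfl) fun _ _ => rfl
  have h := ll_all hi hj ψ ψ' c c' τ hm1 hm'
  refine lift_congr (x' := ψ) (y' := ψ') ?_ ?_ h
  · have := (NI chevD4 F).inv_mem (inv_mul_conj_mul ψ g)
    rwa [mul_inv_rev, inv_inv] at this
  · have := (NI chevD4 F).inv_mem (inv_mul_conj_mul ψ' g')
    rwa [mul_inv_rev, inv_inv] at this

end Cfsg.Agent.H237.D4C
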