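import Cfsg.Agent.H237.D4C.Main
import Cfsg.Agent.H157.DG.Euclid
import Cfsg.Agent.S1082

/-!
# S4180, Cos2 row `PΩ₈⁺(q)` (helper237)
-/

set_option autoImplicit false

namespace Cfsg.Agent.H237.D4C

open Cfsg.Lie Cfsg.Agent.H891.DG

universe u v

theorem cos2_chevD4 (F : Type u) [Field F] [Finite F] : Cos2 ↥(chevD4.group F) := cosD4

/-- **Row `PΩ₈⁺(q)`.** -/
theorem cos2_plus_four {T : Type u} [Group T] {F : Type v} [Field F] [Finite F]
    (e : T ≃* Cfsg.POmega F (Cfsg.quadFormPlus 4 F)) : Cos2 T := by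
  obtain ⟨e0⟩ := Cfsg.Agent.S1082.result (F := F)
  exact Cfsg.Agent.H157.DG.cos2_congr (e0.trans e.symm) (cos2_chevD4 F)

end Cfsg.Agent.H237.D4C
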